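import Mathlib
import Cfsg.Agent.H78.PSL33.Data
import Cfsg.Agent.H1.Orders

/-!
Class structure of `SL(3,3)`: transvections, involutions and centralizer orders.
-/

set_option autoImplicit false

namespace Cfsg.Agent.H78.PSL33

open Matrix MatrixGroups

abbrev G33 := Matrix.SpecialLinearGroup (Fin 3) K

/-- matrix of nine entries -/
def toMat (x : M3) : Matrix (Fin 3) (Fin 3) K := !![x.a, x.b, x.c; x.d, x.e, x.f; x.g, x.h, x.i]

/-- nine entries of a matrix -/
def ofMat (m : Matrix (Fin 3) (Fin 3) K) : M3 :=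
  ⟨m 0 0, m 0 1, m 0 2, m 1 0, m 1 1, m 1 2, m 2 0, m 2 1, m 2 2⟩

theorem toMat_ofMat (m : Matrix (Fin 3) (Fin 3) K) : toMat (ofMat m) = m := by
  ext i j; fin_cases i <;> fin_cases j <;> rfl

theorem ofMat_toMat (x : M3) : ofMat (toMat x) = x := rfl

theorem toMat_injective : Function.Injective toMat := fun x y h => by
  rw [← ofMat_toMat x, h, ofMat_toMat]

theorem ofMat_mul (m n : Matrix (Fin 3) (Fin 3) K) : ofMat (m * n) = (ofMat m).mul (ofMat n) := by
  simp [ofMat, M3.mul, Matrix.mul_apply, Fin.sum_univ_three]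

theorem det_eq (x : M3) : (toMat x).det = x.det := by
  rw [Matrix.det_fin_three]
  show _ = x.a * (x.e * x.i - x.f * x.h) - x.b * (x.d * x.i - x.f * x.g) + x.c * (x.d * x.h - x.e * x.g)
  simp [toMat]
  ring

/-- entries of a group element -/
def e9 (g : G33) : M3 := ofMat g.1

theorem e9_injective : Function.Injective e9 := fun g h hh => by
  apply Subtype.ext
  rw [← toMat_ofMat g.1, ← toMat_ofMat h.1]
  exact congrArg toMat hh

theorem e9_mul (g h : G33) : e9 (g * h) = (e9 g).mul (e9 h) := ofMat_mul g.1 h.1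

theorem e9_one : e9 1 = M3.id3 := rfl

theorem e9_det (g : G33) : (e9 g).det = 1 := by
  rw [← det_eq, e9, toMat_ofMat]; exact g.2

/-- group element with given entries -/
def mk (x : M3) (h : x.det = 1) : G33 := ⟨toMat x, (det_eq x).trans h⟩

theorem e9_mk (x : M3) (h : x.det = 1) : e9 (mk x h) = x := rfl

theorem tM_det : ∀ k : Fin 104, (tM k).det = 1 := by decide +kernel
theorem sM_det : ∀ k : Fin 117, (sM k).det = 1 := by decide +kernel
theorem tConj_det : ∀ k : Fin 104, (tConj k).det = 1 := by decide +kernel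
theorem sConj_det : ∀ k : Fin 117, (sConj k).det = 1 := by decide +kernel

/-- the transvection `k` -/
def tEl (k : Fin 104) : G33 := mk (tM k) (tM_det k)

/-- the involution `k` -/
def sEl (k : Fin 117) : G33 := mk (sM k) (sM_det k)

/-- distinctness by an index computed from the entries -/
theorem tM_index : ∀ k : Fin 104,
    ((List.range 104).find? fun j => tM j == tM k) = some k.val := by decide +kernel

theorem sM_index : ∀ k : Fin 117,
    ((List.range 117).find? fun j => sM j == sM k) = some k.val := by decide +kernel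

theorem tEl_injective : Function.Injective tEl := fun a b h => by
  have h' : tM a = tM b := congrArg e9 h
  have ha := tM_index a
  rw [h', tM_index b] at ha
  exact Fin.ext (Option.some.inj ha).symm

theorem sEl_injective : Function.Injective sEl := fun a b h => by
  have h' : sM a = sM b := congrArg e9 h
  have ha := sM_index a
  rw [h', sM_index b] at ha
  exact Fin.ext (Option.some.inj ha).symm

theorem tM_conj : ∀ k : Fin 104, (tConj k).mul (tM (0 : ℕ)) = (tM k).mul (tConj k) := by decide +kernel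
theorem sM_conj : ∀ k : Fin 117, (sConj k).mul (sM (0 : ℕ)) = (sM k).mul (sConj k) := by decide +kernel
theorem tM_quad : ∀ k : Fin 104, (tM k).pred1.mul (tM k).pred1 = M3.zero ∧ tM k ≠ M3.id3 := by
  decide +kernel
theorem sM_sq : ∀ k : Fin 117, (sM k).mul (sM k) = M3.id3 ∧ sM k ≠ M3.id3 ∧
    (sM k).pred1.mul (sM k).pred1 ≠ M3.zero := by decide +kernel

theorem ofMat_sub_one (m : Matrix (Fin 3) (Fin 3) K) : ofMat (m - 1) = (ofMat m).pred1 := by
  simp [ofMat, M3.pred1]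

/-- `g - 1` squares to zero -/
def IsQuad (g : G33) : Prop := (g.1 - 1) * (g.1 - 1) = 0

theorem isQuad_iff (g : G33) : IsQuad g ↔ (e9 g).pred1.mul (e9 g).pred1 = M3.zero := by
  rw [e9, ← ofMat_sub_one, ← ofMat_mul, IsQuad]
  constructor
  · intro h; rw [h]; rfl
  · intro h; rw [← toMat_ofMat ((g.1 - 1) * (g.1 - 1)), h]; ext i j; fin_cases i <;> fin_cases j <;> rfl

theorem IsQuad.conj {g : G33} (h : IsQuad g) (x : G33) : IsQuad (x * g * x⁻¹) := by
  have hx : x.1 * (x⁻¹ : G33).1 = 1 := congrArg Subtype.val (mul_inv_cancel x)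
  have hx' : (x⁻¹ : G33).1 * x.1 = 1 := congrArg Subtype.val (inv_mul_cancel x)
  have e : (x * g * x⁻¹).1 - 1 = x.1 * (g.1 - 1) * (x⁻¹ : G33).1 := by
    show x.1 * g.1 * (x⁻¹ : G33).1 - 1 = _
    rw [mul_sub, sub_mul, mul_one, hx]
  unfold IsQuad at h ⊢
  rw [e]
  calc x.1 * (g.1 - 1) * (x⁻¹ : G33).1 * (x.1 * (g.1 - 1) * (x⁻¹ : G33).1)
      = x.1 * ((g.1 - 1) * (((x⁻¹ : G33).1 * x.1) * (g.1 - 1))) * (x⁻¹ : G33).1 := by
        simp only [mul_assoc]
    _ = 0 := by rw [hx', one_mul, h, mul_zero, zero_mul]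

theorem bool_cases {a b x y t s u : Bool}
    (h : (a || b || (if x = true then t else if y = true then s else u)) = true) :
    a = true ∨ b = true ∨ (x = true ∧ t = true) ∨ (x = false ∧ y = true ∧ s = true) ∨
      (x = false ∧ y = false ∧ u = true) := by
  cases a <;> cases b <;> cases x <;> cases y <;> simp_all

theorem classify_prop (m : M3) : m.det ≠ 1 ∨ m = M3.id3 ∨
    (m.pred1.mul m.pred1 = M3.zero ∧ ∃ k : Fin 104, tM k = m) ∨
    (¬ m.pred1.mul m.pred1 = M3.zero ∧ m.mul m = M3.id3 ∧ ∃ k : Fin 117, sM k = m) ∨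
    (¬ m.pred1.mul m.pred1 = M3.zero ∧ ¬ m.mul m = M3.id3 ∧
      ∃ p : ℕ, M3.det3 (pvec p) (m.ap (pvec p)) (m.ap (m.ap (pvec p))) ≠ 0) := by
  rcases bool_cases (classify m) with h | h | ⟨hx, ht⟩ | ⟨hx, hy, hs⟩ | ⟨hx, hy, hu⟩
  · exact Or.inl (bne_iff_ne.mp h)
  · exact Or.inr (Or.inl (beq_iff_eq.mp h))
  · obtain ⟨k, hk, hkg⟩ := List.any_eq_true.mp ht
    exact Or.inr (Or.inr (Or.inl ⟨beq_iff_eq.mp hx, ⟨k, List.mem_range.mp hk⟩, beq_iff_eq.mp hkg⟩))
  · obtain ⟨k, hk, hkg⟩ := List.any_eq_true.mp hs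
    exact Or.inr (Or.inr (Or.inr (Or.inl ⟨beq_eq_false_iff_ne.mp hx, beq_iff_eq.mp hy,
      ⟨k, List.mem_range.mp hk⟩, beq_iff_eq.mp hkg⟩)))
  · obtain ⟨p, -, hp⟩ := List.any_eq_true.mp hu
    exact Or.inr (Or.inr (Or.inr (Or.inr ⟨beq_eq_false_iff_ne.mp hx, beq_eq_false_iff_ne.mp hy,
      p, bne_iff_ne.mp hp⟩)))

theorem exists_cases (g : G33) (hg : g ≠ 1) :
    (IsQuad g ∧ ∃ k, g = tEl k) ∨ (¬ IsQuad g ∧ g * g = 1 ∧ ∃ k, g = sEl k) ∨
    (g * g ≠ 1 ∧ ¬ IsQuad g ∧ ∃ p : ℕ,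
      M3.det3 (pvec p) ((e9 g).ap (pvec p)) ((e9 g).ap ((e9 g).ap (pvec p))) ≠ 0) := by
  have h1 : e9 g ≠ M3.id3 := fun h => hg (e9_injective (h.trans e9_one.symm))
  rcases classify_prop (e9 g) with h | h | ⟨hq, k, hk⟩ | ⟨hq, hs, k, hk⟩ | ⟨hq, hs, p, hp⟩
  · exact absurd (e9_det g) h
  · exact absurd h h1
  · exact Or.inl ⟨(isQuad_iff g).mpr hq, k, e9_injective (hk.symm.trans (e9_mk _ _).symm)⟩
  · exact Or.inr (Or.inl ⟨fun h' => hq ((isQuad_iff g).mp h'),
      e9_injective ((e9_mul g g).trans (hs.trans e9_one.symm)), k,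
      e9_injective (hk.symm.trans (e9_mk _ _).symm)⟩)
  · exact Or.inr (Or.inr ⟨fun h' => hs ((e9_mul g g).symm.trans ((congrArg e9 h').trans e9_one)),
      fun h' => hq ((isQuad_iff g).mp h'), p, hp⟩)

theorem e9_tEl (k : Fin 104) : e9 (tEl k) = tM k := e9_mk _ _

theorem e9_sEl (k : Fin 117) : e9 (sEl k) = sM k := e9_mk _ _

theorem tEl_quad (k : Fin 104) : IsQuad (tEl k) ∧ tEl k ≠ 1 :=
  ⟨(isQuad_iff _).mpr (by rw [e9_tEl]; exact (tM_quad k).1),
    fun h => (tM_quad k).2 (by rw [← e9_tEl, h, e9_one])⟩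

theorem sEl_sq (k : Fin 117) : sEl k * sEl k = 1 ∧ sEl k ≠ 1 ∧ ¬ IsQuad (sEl k) :=
  ⟨e9_injective (by rw [e9_mul, e9_sEl, e9_one]; exact (sM_sq k).1),
    fun h => (sM_sq k).2.1 (by rw [← e9_sEl, h, e9_one]),
    fun h => (sM_sq k).2.2 (by rw [← e9_sEl]; exact (isQuad_iff _).mp h)⟩

theorem eq_tEl_of_quad {g : G33} (hg : g ≠ 1) (h : IsQuad g) : ∃ k, g = tEl k := by
  rcases exists_cases g hg with ⟨-, h'⟩ | ⟨h', -⟩ | ⟨-, h', -⟩
  · exact h'
  · exact absurd h h'
  · exact absurd h h'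

theorem card_G33 : Nat.card G33 = 5616 := by
  have h := Cfsg.Agent.H1.sub_one_mul_card_SL (F := K) (q := 3) (ZMod.card 3) 3 (by norm_num)
  have hprod : (∏ i : Fin 3, (3 ^ 3 - 3 ^ (i : ℕ))) = 11232 := by rfl
  have h2 : 2 * Nat.card G33 = 11232 := h.trans hprod
  generalize Nat.card G33 = n at h2 ⊢
  omega

/-- Class equation for an element whose class is listed. -/
theorem card_centralizer_mul {n : ℕ} (cl : Fin n → G33) (hinj : Function.Injective cl) (g0 : G33)
    (hconj : ∀ k, ∃ x : G33, x * g0 * x⁻¹ = cl k) (hall : ∀ x : G33, ∃ k, x * g0 * x⁻¹ = cl k)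
    (k : Fin n) : n * Nat.card (Subgroup.centralizer ({cl k} : Set G33)) = 5616 := by
  have hclass : MulAction.orbit (ConjAct G33) (cl k) = Set.range cl := by
    obtain ⟨x0, hx0⟩ := hconj k
    ext w
    constructor
    · rintro ⟨c, rfl⟩
      obtain ⟨j, hj⟩ := hall (ConjAct.ofConjAct c * x0)
      refine ⟨j, ?_⟩
      show cl j = c • cl k
      rw [ConjAct.smul_def, ← hj, ← hx0]
      group
    · rintro ⟨j, rfl⟩
      obtain ⟨x, hx⟩ := hconj j
      refine ⟨ConjAct.toConjAct (x * x0⁻¹), ?_⟩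
      show ConjAct.toConjAct (x * x0⁻¹) • cl k = cl j
      rw [ConjAct.smul_def, ConjAct.ofConjAct_toConjAct, ← hx, ← hx0]
      group
  have h2 : Nat.card (MulAction.orbit (ConjAct G33) (cl k)) = n := by
    rw [hclass, Nat.card_range_of_injective hinj, Nat.card_fin]
  have h3 : Nat.card (MulAction.stabilizer (ConjAct G33) (cl k)) =
      Nat.card (Subgroup.centralizer ({cl k} : Set G33)) := by
    have hm : (MulAction.stabilizer (ConjAct G33) (cl k)).map ConjAct.ofConjAct.toMonoidHom =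
        Subgroup.centralizer ({cl k} : Set G33) := by
      ext y
      constructor
      · rintro ⟨c, hc, rfl⟩
        have hc' : ConjAct.ofConjAct c * cl k * (ConjAct.ofConjAct c)⁻¹ = cl k := hc
        exact Subgroup.mem_centralizer_singleton_iff.mpr (mul_inv_eq_iff_eq_mul.mp hc')
      · intro hy
        exact ⟨ConjAct.toConjAct y, show (y : G33) * cl k * (y : G33)⁻¹ = cl k from
          mul_inv_eq_iff_eq_mul.mpr (Subgroup.mem_centralizer_singleton_iff.mp hy), rfl⟩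
    rw [← hm]
    exact Nat.card_congr (Subgroup.equivMapOfInjective _ _ ConjAct.ofConjAct.injective).toEquiv
  rw [← h3, ← h2, Nat.card_congr (MulAction.orbitEquivQuotientStabilizer (ConjAct G33) (cl k)),
    ← Subgroup.card_eq_card_quotient_mul_card_subgroup, ← card_G33]
  exact Nat.card_congr ConjAct.ofConjAct.toEquiv

theorem tEl_conj (k : Fin 104) : ∃ x : G33, x * tEl 0 * x⁻¹ = tEl k :=
  ⟨mk (tConj k) (tConj_det k), by
    rw [mul_inv_eq_iff_eq_mul]
    apply e9_injective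
    rw [e9_mul, e9_mul]
    exact tM_conj k⟩

theorem sEl_conj (k : Fin 117) : ∃ x : G33, x * sEl 0 * x⁻¹ = sEl k :=
  ⟨mk (sConj k) (sConj_det k), by
    rw [mul_inv_eq_iff_eq_mul]
    apply e9_injective
    rw [e9_mul, e9_mul]
    exact sM_conj k⟩

theorem card_centralizer_tEl (k : Fin 104) :
    Nat.card (Subgroup.centralizer ({tEl k} : Set G33)) = 54 := by
  have := card_centralizer_mul tEl tEl_injective (tEl 0) tEl_conj (fun x => by
    obtain ⟨j, hj⟩ := eq_tEl_of_quad (g := x * tEl 0 * x⁻¹)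
      (fun h => (tEl_quad 0).2 (conj_eq_one_iff.mp h)) ((tEl_quad 0).1.conj x)
    exact ⟨j, hj⟩) k
  omega

theorem card_centralizer_sEl (k : Fin 117) :
    Nat.card (Subgroup.centralizer ({sEl k} : Set G33)) = 48 := by
  have := card_centralizer_mul sEl sEl_injective (sEl 0) sEl_conj (fun x => by
    have hne : x * sEl 0 * x⁻¹ ≠ 1 := fun h => (sEl_sq 0).2.1 (conj_eq_one_iff.mp h)
    have hsq : (x * sEl 0 * x⁻¹) * (x * sEl 0 * x⁻¹) = 1 := by
      calc _ = x * (sEl 0 * sEl 0) * x⁻¹ := by group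
        _ = 1 := by rw [(sEl_sq 0).1]; group
    rcases exists_cases _ hne with ⟨hq, -⟩ | ⟨-, -, h⟩ | ⟨h, -⟩
    · have := hq.conj x⁻¹
      rw [show x⁻¹ * (x * sEl 0 * x⁻¹) * (x⁻¹)⁻¹ = sEl 0 by group] at this
      exact absurd this (sEl_sq 0).2.2
    · exact h
    · exact absurd hsq h) k
  omega

/-- a triple as a vector -/
def tvec (w : K × K × K) : Fin 3 → K := ![w.1, w.2.1, w.2.2]

theorem mulVec_tvec (g : G33) (w : K × K × K) : g.1 *ᵥ tvec w = tvec ((e9 g).ap w) := by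
  funext i
  fin_cases i <;> simp [tvec, M3.ap, e9, ofMat, Matrix.mulVec, dotProduct, Fin.sum_univ_three]

theorem det_cols (u v w : K × K × K) :
    (Matrix.of fun i j => (![tvec u, tvec v, tvec w] j) i).det = M3.det3 u v w := by
  rw [Matrix.det_fin_three]
  simp [tvec, M3.det3]
  ring

theorem card_centralizer_cyclic (g : G33) (p : ℕ)
    (hp : M3.det3 (pvec p) ((e9 g).ap (pvec p)) ((e9 g).ap ((e9 g).ap (pvec p))) ≠ 0) :
    Nat.card (Subgroup.centralizer ({g} : Set G33)) ≤ 27 := by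
  set v : Fin 3 → K := tvec (pvec p) with hv
  set B : Matrix (Fin 3) (Fin 3) K := Matrix.of fun i j =>
    (![v, g.1 *ᵥ v, g.1 *ᵥ (g.1 *ᵥ v)] j) i with hB
  have hBdet : B.det ≠ 0 := by
    rw [hB, hv, mulVec_tvec, mulVec_tvec, det_cols]
    exact hp
  have hinj : Function.Injective fun h : Subgroup.centralizer ({g} : Set G33) => h.1.1 *ᵥ v := by
    intro h k hhk
    have hc : ∀ h : Subgroup.centralizer ({g} : Set G33), ∀ w, h.1.1 *ᵥ (g.1 *ᵥ w) = g.1 *ᵥ (h.1.1 *ᵥ w) := by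
      intro h w
      rw [Matrix.mulVec_mulVec, Matrix.mulVec_mulVec]
      have := Subgroup.mem_centralizer_singleton_iff.mp h.2
      rw [show h.1.1 * g.1 = g.1 * h.1.1 from congrArg Subtype.val this]
    have hBeq : h.1.1 * B = k.1.1 * B := by
      ext i j
      have hcol : ∀ A : Matrix (Fin 3) (Fin 3) K,
          (A * B) i j = (A *ᵥ (![v, g.1 *ᵥ v, g.1 *ᵥ (g.1 *ᵥ v)] j)) i := fun A => rfl
      rw [hcol, hcol]
      fin_cases j
      · exact congrFun hhk i
      · show (h.1.1 *ᵥ (g.1 *ᵥ v)) i = (k.1.1 *ᵥ (g.1 *ᵥ v)) i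
        rw [hc h, hc k]; exact congrFun (congrArg (g.1 *ᵥ ·) hhk) i
      · show (h.1.1 *ᵥ (g.1 *ᵥ (g.1 *ᵥ v))) i = (k.1.1 *ᵥ (g.1 *ᵥ (g.1 *ᵥ v))) i
        rw [hc h, hc k, hc h, hc k]
        exact congrFun (congrArg (fun u => g.1 *ᵥ (g.1 *ᵥ u)) hhk) i
    have hu : IsUnit B := (Matrix.isUnit_iff_isUnit_det B).mpr (isUnit_iff_ne_zero.mpr hBdet)
    exact Subtype.ext (Subtype.ext (hu.mul_right_cancel hBeq))
  refine (Nat.card_le_card_of_injective _ hinj).trans (le_of_eq ?_)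
  rw [Nat.card_eq_fintype_card, Fintype.card_fun, ZMod.card, Fintype.card_fin]
  rfl

theorem card_centralizer_le {g : G33} (hg : g ≠ 1) :
    Nat.card (Subgroup.centralizer ({g} : Set G33)) ≤ 54 := by
  rcases exists_cases g hg with ⟨-, k, rfl⟩ | ⟨-, -, k, rfl⟩ | ⟨-, -, p, hp⟩
  · exact (card_centralizer_tEl k).le
  · rw [card_centralizer_sEl k]; norm_num
  · exact (card_centralizer_cyclic g p hp).trans (by norm_num)

theorem eq_tEl_of_card {g : G33} (hg : g ≠ 1)
    (h : Nat.card (Subgroup.centralizer ({g} : Set G33)) = 54) : ∃ k, g = tEl k := by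
  rcases exists_cases g hg with ⟨-, h'⟩ | ⟨-, -, k, rfl⟩ | ⟨-, -, p, hp⟩
  · exact h'
  · rw [card_centralizer_sEl k] at h; norm_num at h
  · have := card_centralizer_cyclic g p hp
    omega

end Cfsg.Agent.H78.PSL33
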