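import Mathlib
import Cfsg.Agent.H78.PSL33.Data

/-!
The incidence graph of the plane of order three: combinatorics of transvections and a bound on the
automorphism group.
-/

set_option autoImplicit false

namespace Cfsg.Agent.H78.PSL33

/-- membership of a transvection in an elation set -/
def inE (x : Fin 26) (k : Fin 104) : Prop :=
  if x.val < 13 then tPt k = x.val else tLn k + 13 = x.val

instance (x : Fin 26) (k : Fin 104) : Decidable (inE x k) := by unfold inE; infer_instance

/-- commutation of transvections -/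
def tComm (a b : Fin 104) : Prop := (tM a).mul (tM b) = (tM b).mul (tM a)

theorem comm_same : ∀ a b : Fin 104, (tM a).mul (tM b) = (tM b).mul (tM a) →
    tPt a = tPt b ∨ tLn a = tLn b := by decide +kernel

theorem comm_of_same : ∀ a b : Fin 104, tPt a = tPt b ∨ tLn a = tLn b →
    (tM a).mul (tM b) = (tM b).mul (tM a) := by decide +kernel

theorem card_E : ∀ x : Fin 26, (Finset.univ.filter fun k => inE x k).card = 8 := by decide +kernel

theorem tPt_lt : ∀ k : Fin 104, tPt k < 13 ∧ tLn k < 13 := by decide +kernel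

theorem E_inj : ∀ x y : Fin 26, (∀ k : Fin 104, inE x k ↔ inE y k) → x = y := by decide +kernel

theorem adj_iff : ∀ x y : Fin 26, adj x y = true ↔ x ≠ y ∧ ∃ k : Fin 104, inE x k ∧ inE y k := by
  decide +kernel

theorem pair_two : ∀ k : Fin 104, (Finset.univ.filter fun j : Fin 104 =>
    tPt j = tPt k ∧ tLn j = tLn k).card = 2 := by decide +kernel

/-- A permutation of the transvections preserving commutation permutes the elation sets. -/
theorem exists_image (π : Equiv.Perm (Fin 104)) (hπ : ∀ a b, tComm a b → tComm (π a) (π b))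
    (x : Fin 26) : ∃ y : Fin 26, ∀ k, inE x k ↔ inE y (π k) := by
  classical
  set S := (Finset.univ.filter fun k => inE x k).image π with hS
  have hScard : S.card = 8 := by rw [hS, Finset.card_image_of_injective _ π.injective, card_E]
  have hcl : ∀ a ∈ S, ∀ b ∈ S, tPt a = tPt b ∨ tLn a = tLn b := by
    intro a ha b hb
    simp only [hS, Finset.mem_image, Finset.mem_filter, Finset.mem_univ, true_and] at ha hb
    obtain ⟨a, ha, rfl⟩ := ha
    obtain ⟨b, hb, rfl⟩ := hb
    refine comm_same _ _ (hπ a b (comm_of_same a b ?_))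
    unfold inE at ha hb
    split at ha
    · rename_i hx; rw [if_pos hx] at hb; exact Or.inl (ha.trans hb.symm)
    · rename_i hx; rw [if_neg hx] at hb; exact Or.inr (by omega)
  obtain ⟨a, ha⟩ : S.Nonempty := Finset.card_pos.mp (by omega)
  have key : ∀ y : Fin 26, (∀ b ∈ S, inE y b) → ∀ k, inE x k ↔ inE y (π k) := by
    intro y hy
    have heq : S = Finset.univ.filter fun k => inE y k :=
      Finset.eq_of_subset_of_card_le (fun b hb => Finset.mem_filter.mpr ⟨Finset.mem_univ _, hy b hb⟩)
        (by rw [card_E, hScard])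
    intro k
    constructor
    · intro hk
      exact hy _ (Finset.mem_image.mpr ⟨k, Finset.mem_filter.mpr ⟨Finset.mem_univ _, hk⟩, rfl⟩)
    · intro hk
      have : π k ∈ S := heq ▸ Finset.mem_filter.mpr ⟨Finset.mem_univ _, hk⟩
      obtain ⟨j, hj, hjk⟩ := Finset.mem_image.mp this
      rw [← π.injective hjk]
      exact (Finset.mem_filter.mp hj).2
  have hlt := tPt_lt a
  by_cases hP : ∀ b ∈ S, tPt b = tPt a
  · refine ⟨⟨tPt a, by omega⟩, key _ fun b hb => ?_⟩
    unfold inE
    rw [if_pos hlt.1]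
    exact hP b hb
  · push Not at hP
    obtain ⟨b, hb, hab⟩ := hP
    have hL : tLn b = tLn a := (hcl b hb a ha).resolve_left hab
    refine ⟨⟨tLn a + 13, by omega⟩, key _ fun c hc => ?_⟩
    unfold inE
    rw [if_neg (by show ¬ tLn a + 13 < 13; omega)]
    show tLn c + 13 = tLn a + 13
    rcases hcl c hc a ha with h | h
    · rcases hcl c hc b hb with h' | h'
      · exact absurd (h'.symm.trans h) hab
      · omega
    · omega

/-- automorphisms of the incidence graph -/
def autGraph : Subgroup (Equiv.Perm (Fin 26)) where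
  carrier := {σ | ∀ x y, adj (σ x) (σ y) = adj x y}
  one_mem' := fun _ _ => rfl
  mul_mem' := fun {σ τ} hσ hτ x y => (hσ (τ x) (τ y)).trans (hτ x y)
  inv_mem' := fun {σ} hσ x y => by
    have := hσ (σ⁻¹ x) (σ⁻¹ y)
    rw [← Equiv.Perm.mul_apply, ← Equiv.Perm.mul_apply, mul_inv_cancel] at this
    exact this.symm

/-- joint neighbours -/
def nb3 (x y z : Fin 26) : Bool := (List.finRange 26).any fun w => adj x w && adj y w && adj z w

/-- joint neighbours of two -/
def nb2 (x y : Fin 26) : Bool := (List.finRange 26).any fun w => adj x w && adj y w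

theorem nb2_map {σ : Equiv.Perm (Fin 26)} (h : σ ∈ autGraph) (x y : Fin 26) :
    nb2 (σ x) (σ y) = nb2 x y := by
  rw [Bool.eq_iff_iff]
  simp only [nb2, List.any_eq_true, List.mem_finRange, true_and, Bool.and_eq_true]
  constructor
  · rintro ⟨w, hw⟩
    obtain ⟨u, rfl⟩ := σ.surjective w
    exact ⟨u, by rwa [h, h] at hw⟩
  · rintro ⟨w, hw⟩
    exact ⟨σ w, by rwa [h, h]⟩

theorem nb3_map {σ : Equiv.Perm (Fin 26)} (h : σ ∈ autGraph) (x y z : Fin 26) :
    nb3 (σ x) (σ y) (σ z) = nb3 x y z := by
  rw [Bool.eq_iff_iff]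
  simp only [nb3, List.any_eq_true, List.mem_finRange, true_and, Bool.and_eq_true]
  constructor
  · rintro ⟨w, hw⟩
    obtain ⟨u, rfl⟩ := σ.surjective w
    exact ⟨u, by rwa [h, h, h] at hw⟩
  · rintro ⟨w, hw⟩
    exact ⟨σ w, by rwa [h, h, h]⟩

/-- test of one construction step -/
def stepB (t : Fin 26 × Fin 26 × Fin 26) : Bool :=
  adj t.1 t.2.2 && adj t.2.1 t.2.2 &&
    (List.finRange 26).all fun w => !(adj t.1 w && adj t.2.1 w) || w == t.2.2

theorem chain_all : chain.all stepB = true := by decide +kernel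

theorem chain_ok : ∀ t ∈ chain, adj t.1 t.2.2 = true ∧ adj t.2.1 t.2.2 = true ∧
    ∀ w, adj t.1 w = true → adj t.2.1 w = true → w = t.2.2 := by
  intro t ht
  have h := List.all_eq_true.mp chain_all t ht
  simp only [stepB, Bool.and_eq_true, List.all_eq_true, List.mem_finRange, true_implies,
    Bool.or_eq_true, Bool.not_eq_true', beq_iff_eq] at h
  refine ⟨h.1.1, h.1.2, fun w h1 h2 => ?_⟩
  rcases h.2 w with h3 | h3
  · simp [h1, h2] at h3
  · exact h3

/-- closure of the frame under the chain -/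
def known : List (Fin 26) := [0, 1, 4, 8] ++ chain.map fun t => t.2.2

theorem known_all : ∀ x : Fin 26, x ∈ known := by decide +kernel

theorem chain_ordered : ∀ i : Fin chain.length,
    (chain.get i).1 ∈ known.take (4 + i.val) ∧ (chain.get i).2.1 ∈ known.take (4 + i.val) := by
  decide +kernel

theorem known_get : ∀ i : Fin chain.length, known[4 + i.val]? = some (chain.get i).2.2 := by
  decide +kernel

theorem eq_one_of_fix_frame {σ : Equiv.Perm (Fin 26)} (h : σ ∈ autGraph)
    (hf : ∀ x ∈ known.take 4, σ x = x) : σ = 1 := by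
  have hlen : known.length = 4 + chain.length := by decide +kernel
  have key : ∀ n, n ≤ chain.length → ∀ x ∈ known.take (4 + n), σ x = x := by
    intro n
    induction n with
    | zero => intro _; simpa using hf
    | succ n ih =>
      intro hn x hx
      rw [show 4 + (n + 1) = (4 + n) + 1 by omega, List.take_succ_eq_append_getElem (by omega),
        List.mem_append, List.mem_singleton] at hx
      rcases hx with hx | rfl
      · exact ih (by omega) x hx
      · obtain ⟨h1, h2⟩ := chain_ordered ⟨n, by omega⟩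
        have ok := chain_ok (chain.get ⟨n, by omega⟩) (List.get_mem _ _)
        have hk : known[4 + n]'(by omega) = (chain.get ⟨n, by omega⟩).2.2 :=
          Option.some.inj ((List.getElem?_eq_getElem (by omega)).symm.trans
            (known_get ⟨n, by omega⟩))
        rw [hk]
        have e1 := ih (by omega) _ h1
        have e2 := ih (by omega) _ h2
        refine ok.2.2 _ ?_ ?_
        · rw [← e1, h]; exact ok.1
        · rw [← e2, h]; exact ok.2.1
  refine Equiv.ext fun x => key chain.length le_rfl x ?_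
  rw [← hlen, List.take_length]
  exact known_all x

theorem orbit_bound {α : Type*} [DecidableEq α] {P : Subgroup (Equiv.Perm α)} (a : α) (T : Finset α)
    (hT : ∀ σ ∈ P, σ a ∈ T) {n : ℕ} [Finite α]
    (hn : Nat.card (P ⊓ MulAction.stabilizer (Equiv.Perm α) a : Subgroup _) ≤ n) :
    Nat.card P ≤ T.card * n := by
  have h1 : Nat.card (MulAction.orbit P a) ≤ T.card := by
    rw [← Nat.card_eq_finsetCard T]
    exact Nat.card_le_card_of_injective
      (fun w : MulAction.orbit P a => (⟨w.1, by obtain ⟨σ, hσ⟩ := w.2; rw [← hσ]; exact hT σ.1 σ.2⟩ : T))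
      (fun u v h => Subtype.ext (by simpa using h))
  have h2 : Nat.card (MulAction.stabilizer P a) =
      Nat.card (P ⊓ MulAction.stabilizer (Equiv.Perm α) a : Subgroup _) :=
    Nat.card_congr
      { toFun := fun s => ⟨s.1.1, s.1.2, s.2⟩
        invFun := fun s => ⟨⟨s.1, s.2.1⟩, s.2.2⟩
        left_inv := fun _ => rfl
        right_inv := fun _ => rfl }
  rw [Subgroup.card_eq_card_quotient_mul_card_subgroup (MulAction.stabilizer P a),
    ← Nat.card_congr (MulAction.orbitEquivQuotientStabilizer P a), h2]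
  exact Nat.mul_le_mul h1 hn

/-- The automorphism group of the incidence graph has at most 11232 elements. -/
theorem card_autGraph_le : Nat.card autGraph ≤ 26 * (12 * (9 * (4 * 1))) := by
  classical
  have hval : known.take 4 = [0, 1, 4, 8] := rfl
  let T2 := Finset.univ.filter fun y : Fin 26 => y ≠ 0 ∧ nb2 y 0 = true
  let T3 := Finset.univ.filter fun y : Fin 26 => y ≠ 0 ∧ y ≠ 1 ∧
    nb2 y 0 = true ∧ nb2 y 1 = true ∧ nb3 y 0 1 = false
  let T4 := Finset.univ.filter fun y : Fin 26 => y ≠ 0 ∧ y ≠ 1 ∧ y ≠ 4 ∧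
    nb2 y 0 = true ∧ nb2 y 1 = true ∧ nb2 y 4 = true ∧
    nb3 y 0 1 = false ∧ nb3 y 0 4 = false ∧
    nb3 y 1 4 = false
  have c2 : T2.card = 12 := by decide +kernel
  have c3 : T3.card = 9 := by decide +kernel
  have c4 : T4.card = 4 := by decide +kernel
  have m2 : (1 : Fin 26) ∈ T2 := by decide +kernel
  have m3 : (4 : Fin 26) ∈ T3 := by decide +kernel
  have m4 : (8 : Fin 26) ∈ T4 := by decide +kernel
  simp only [T2, T3, T4, Finset.mem_filter, Finset.mem_univ, true_and] at m2 m3 m4
  refine orbit_bound (0 : Fin 26) Finset.univ (fun _ _ => Finset.mem_univ _) ?_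
  rw [← c2]
  refine orbit_bound (1 : Fin 26) T2 ?_ ?_
  · rintro σ ⟨hσ, h0 : σ 0 = 0⟩
    simp only [T2, Finset.mem_filter, Finset.mem_univ, true_and]
    exact ⟨fun h => m2.1 (σ.injective (h.trans h0.symm)), by rw [← h0, nb2_map hσ]; exact m2.2⟩
  rw [← c3]
  refine orbit_bound (4 : Fin 26) T3 ?_ ?_
  · rintro σ ⟨⟨hσ, h0 : σ 0 = 0⟩, h1 : σ 1 = 1⟩
    simp only [T3, Finset.mem_filter, Finset.mem_univ, true_and]
    obtain ⟨n0, n1, b0, b1, t⟩ := m3
    refine ⟨fun h => n0 (σ.injective (h.trans h0.symm)), fun h => n1 (σ.injective (h.trans h1.symm)), ?_⟩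
    refine ⟨?_, ?_, ?_⟩
    · rw [← h0, nb2_map hσ]; exact b0
    · rw [← h1, nb2_map hσ]; exact b1
    · rw [← h0, ← h1, nb3_map hσ]; exact t
  rw [← c4]
  refine orbit_bound (8 : Fin 26) T4 ?_ ?_
  · rintro σ ⟨⟨⟨hσ, h0 : σ 0 = 0⟩, h1 : σ 1 = 1⟩,
      h2 : σ 4 = 4⟩
    simp only [T4, Finset.mem_filter, Finset.mem_univ, true_and]
    obtain ⟨n0, n1, n2, b0, b1, b2, t01, t02, t12⟩ := m4
    refine ⟨fun h => n0 (σ.injective (h.trans h0.symm)), fun h => n1 (σ.injective (h.trans h1.symm)),
      fun h => n2 (σ.injective (h.trans h2.symm)), ?_⟩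
    refine ⟨?_, ?_, ?_, ?_, ?_, ?_⟩
    · rw [← h0, nb2_map hσ]; exact b0
    · rw [← h1, nb2_map hσ]; exact b1
    · rw [← h2, nb2_map hσ]; exact b2
    · rw [← h0, ← h1, nb3_map hσ]; exact t01
    · rw [← h0, ← h2, nb3_map hσ]; exact t02
    · rw [← h1, ← h2, nb3_map hσ]; exact t12
  refine (Subgroup.card_eq_one.mpr ?_).le
  rw [Subgroup.eq_bot_iff_forall]
  rintro σ ⟨⟨⟨⟨hσ, h0⟩, h1⟩, h2⟩, h3⟩
  refine eq_one_of_fix_frame hσ ?_
  rw [hval]
  simp only [List.mem_cons, List.not_mem_nil, or_false]
  rintro x (rfl | rfl | rfl | rfl)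
  · exact h0
  · exact h1
  · exact h2
  · exact h3

end Cfsg.Agent.H78.PSL33
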