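import Mathlib
import Cfsg.Agent.H78.PSL33.Facts
import Cfsg.Agent.H78.PSL33.Plane

/-!
A group whose commuting structure is that of `SL(3,3)` embeds in the automorphism group of the
incidence graph of the plane of order three, and so is isomorphic to `SL(3,3)`.
-/

set_option autoImplicit false

namespace Cfsg.Agent.H78.PSL33

section

variable {H : Type*} [Group H] [Finite H] (e : H ≃ G33)
  (hc : ∀ x y : H, x * y = y * x ↔ e x * e y = e y * e x)

include hc

theorem e_one_of_central {x : H} (hx : ∀ y : H, x * y = y * x) : e x = 1 := by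
  by_contra hne
  have h1 : Nat.card (Subgroup.centralizer ({e x} : Set G33)) = 5616 := by
    have : Subgroup.centralizer ({e x} : Set G33) = ⊤ := by
      rw [eq_top_iff]
      intro g _
      obtain ⟨y, rfl⟩ := e.surjective g
      exact Subgroup.mem_centralizer_singleton_iff.mpr ((hc x y).mp (hx y)).symm
    rw [this, Subgroup.card_top, card_G33]
  have := card_centralizer_le hne
  omega

theorem e_one : e 1 = 1 := e_one_of_central e hc fun y => by rw [one_mul, mul_one]

theorem e_ne_one {x : H} (hx : x ≠ 1) : e x ≠ 1 := fun h =>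
  hx (e.injective (h.trans (e_one e hc).symm))

theorem card_centralizer_e (x : H) :
    Nat.card (Subgroup.centralizer ({x} : Set H)) =
      Nat.card (Subgroup.centralizer ({e x} : Set G33)) :=
  Nat.card_congr
    { toFun := fun y => ⟨e y.1, Subgroup.mem_centralizer_singleton_iff.mpr
        ((hc _ _).mp (Subgroup.mem_centralizer_singleton_iff.mp y.2))⟩
      invFun := fun g => ⟨e.symm g.1, Subgroup.mem_centralizer_singleton_iff.mpr
        ((hc _ _).mpr (by simpa using Subgroup.mem_centralizer_singleton_iff.mp g.2))⟩
      left_inv := fun y => Subtype.ext (e.symm_apply_apply _)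
      right_inv := fun g => Subtype.ext (e.apply_symm_apply _) }

theorem exists_conj_index (h : H) (k : Fin 104) : ∃ j, e (h * e.symm (tEl k) * h⁻¹) = tEl j := by
  set x := e.symm (tEl k) with hx
  have hx1 : x ≠ 1 := fun h' => (tEl_quad k).2 (by
    rw [← e.apply_symm_apply (tEl k), ← hx, h', e_one e hc])
  refine eq_tEl_of_card (e_ne_one e hc (fun h' => hx1 (conj_eq_one_iff.mp h'))) ?_
  rw [← card_centralizer_e e hc]
  have hm : (Subgroup.centralizer ({x} : Set H)).map (MulAut.conj h).toMonoidHom =
      Subgroup.centralizer ({h * x * h⁻¹} : Set H) := by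
    ext y
    rw [Subgroup.mem_centralizer_singleton_iff]
    constructor
    · rintro ⟨z, hz, rfl⟩
      have hz' := Subgroup.mem_centralizer_singleton_iff.mp hz
      show h * z * h⁻¹ * (h * x * h⁻¹) = h * x * h⁻¹ * (h * z * h⁻¹)
      calc _ = h * (z * x) * h⁻¹ := by group
        _ = h * (x * z) * h⁻¹ := by rw [hz']
        _ = _ := by group
    · intro hy
      refine ⟨h⁻¹ * y * h, Subgroup.mem_centralizer_singleton_iff.mpr ?_, by
        show h * (h⁻¹ * y * h) * h⁻¹ = y; group⟩
      calc h⁻¹ * y * h * x = h⁻¹ * (y * (h * x * h⁻¹)) * h := by group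
        _ = h⁻¹ * ((h * x * h⁻¹) * y) * h := by rw [hy]
        _ = _ := by group
  rw [← hm, ← Nat.card_congr ((Subgroup.centralizer ({x} : Set H)).equivMapOfInjective _
    (MulAut.conj h).injective).toEquiv, card_centralizer_e e hc, hx, e.apply_symm_apply,
    card_centralizer_tEl]

theorem tComm_iff (a b : Fin 104) :
    tComm a b ↔ e.symm (tEl a) * e.symm (tEl b) = e.symm (tEl b) * e.symm (tEl a) := by
  rw [hc, e.apply_symm_apply, e.apply_symm_apply]
  constructor
  · intro h; apply e9_injective; rw [e9_mul, e9_mul]; exact h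
  · intro h
    have := congrArg e9 h
    rwa [e9_mul, e9_mul] at this

/-- The embedding in the automorphism group of the incidence graph. -/
theorem exists_embedding :
    ∃ f : H →* Equiv.Perm (Fin 26), Function.Injective f ∧ ∀ h, f h ∈ autGraph := by
  classical
  choose κ hκ using exists_conj_index e hc
  have hκ' : ∀ h k, h * e.symm (tEl k) * h⁻¹ = e.symm (tEl (κ h k)) := fun h k => by
    rw [← hκ, e.symm_apply_apply]
  have hmul : ∀ h h' k, κ (h * h') k = κ h (κ h' k) := by
    intro h h' k
    refine tEl_injective (e.symm.injective ?_)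
    rw [← hκ', ← hκ', ← hκ']
    group
  have hone : ∀ k, κ 1 k = k := fun k => tEl_injective (e.symm.injective (by rw [← hκ']; group))
  let π : H → Equiv.Perm (Fin 104) := fun h =>
    { toFun := κ h
      invFun := κ h⁻¹
      left_inv := fun k => by rw [← hmul, inv_mul_cancel, hone]
      right_inv := fun k => by rw [← hmul, mul_inv_cancel, hone] }
  have hcomm : ∀ h a b, tComm a b → tComm (κ h a) (κ h b) := by
    intro h a b hab
    rw [tComm_iff e hc] at hab ⊢
    rw [← hκ', ← hκ']
    calc h * e.symm (tEl a) * h⁻¹ * (h * e.symm (tEl b) * h⁻¹)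
        = h * (e.symm (tEl a) * e.symm (tEl b)) * h⁻¹ := by group
      _ = h * (e.symm (tEl b) * e.symm (tEl a)) * h⁻¹ := by rw [hab]
      _ = _ := by group
  choose σ hσ using fun h => exists_image (π h) (hcomm h)
  have hσ' : ∀ h x k, inE x k ↔ inE (σ h x) (κ h k) := hσ
  have hσmul : ∀ h h' x, σ (h * h') x = σ h (σ h' x) := by
    intro h h' x
    refine E_inj _ _ fun k => ?_
    obtain ⟨j, rfl⟩ := (π (h * h')).surjective k
    show inE (σ (h * h') x) (κ (h * h') j) ↔ inE (σ h (σ h' x)) (κ (h * h') j)
    rw [← hσ', hmul, ← hσ', ← hσ']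
  have hσone : ∀ x, σ 1 x = x := fun x => E_inj _ _ fun k => by
    have := hσ' 1 x k
    rw [hone] at this
    exact this.symm
  let f : H →* Equiv.Perm (Fin 26) :=
    { toFun := fun h =>
        { toFun := σ h
          invFun := σ h⁻¹
          left_inv := fun x => by rw [← hσmul, inv_mul_cancel, hσone]
          right_inv := fun x => by rw [← hσmul, mul_inv_cancel, hσone] }
      map_one' := Equiv.ext hσone
      map_mul' := fun a b => Equiv.ext (hσmul a b) }
  refine ⟨f, ?_, ?_⟩
  · rw [← MonoidHom.ker_eq_bot_iff]
    by_contra hne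
    have hfix : ∀ h ∈ f.ker, ∀ x, σ h x = x := fun h hh x =>
      congrArg (fun p : Equiv.Perm (Fin 26) => p x) (MonoidHom.mem_ker.mp hh)
    have hsq : ∀ h ∈ f.ker, h * h = 1 := by
      intro h hh
      have hκ2 : ∀ k, κ (h * h) k = k := by
        intro k
        rw [hmul]
        have hpair : ∀ j, tPt (κ h j) = tPt j ∧ tLn (κ h j) = tLn j := by
          intro j
          have hlt := tPt_lt j
          have h1 := (hσ' h ⟨tPt j, by omega⟩ j).mp (by unfold inE; rw [if_pos hlt.1])
          have h2 := (hσ' h ⟨tLn j + 13, by omega⟩ j).mp (by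
            unfold inE; rw [if_neg (by show ¬ tLn j + 13 < 13; omega)])
          rw [hfix h hh] at h1 h2
          unfold inE at h1 h2
          rw [if_pos hlt.1] at h1
          rw [if_neg (by show ¬ tLn j + 13 < 13; omega)] at h2
          simp only at h1 h2
          exact ⟨h1, by omega⟩
        obtain ⟨u, v, huv, hs⟩ := Finset.card_eq_two.mp (pair_two k)
        have hin : ∀ j : Fin 104, (tPt j = tPt k ∧ tLn j = tLn k) → j = u ∨ j = v := by
          intro j hj
          have : j ∈ Finset.univ.filter fun j : Fin 104 => tPt j = tPt k ∧ tLn j = tLn k :=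
            Finset.mem_filter.mpr ⟨Finset.mem_univ _, hj⟩
          rw [hs, Finset.mem_insert, Finset.mem_singleton] at this
          exact this
        have a1 := hin k ⟨rfl, rfl⟩
        have a2 := hin (κ h k) (hpair k)
        have a3 := hin (κ h (κ h k)) ⟨(hpair _).1.trans (hpair k).1, (hpair _).2.trans (hpair k).2⟩
        by_cases hk : κ h k = k
        · rw [hk, hk]
        · have hne2 : κ h (κ h k) ≠ κ h k := fun e' => hk ((π h).injective e')
          rcases a1 with a1 | a1 <;> rcases a2 with a2 | a2 <;> rcases a3 with a3 | a3 <;>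
            first
              | exact a3.trans a1.symm
              | exact absurd (a2.trans a1.symm) hk
              | exact absurd (a3.trans a2.symm) hne2
      by_contra hne'
      have hall : ∀ k, e (h * h) * tEl k = tEl k * e (h * h) := by
        intro k
        have h' := hκ' (h * h) k
        rw [hκ2, mul_inv_eq_iff_eq_mul] at h'
        have := (hc _ _).mp h'
        rwa [e.apply_symm_apply] at this
      have hbig : 104 ≤ Nat.card (Subgroup.centralizer ({e (h * h)} : Set G33)) := by
        refine le_trans (le_of_eq (Nat.card_fin 104).symm) (Nat.card_le_card_of_injective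
          (fun k => (⟨tEl k, Subgroup.mem_centralizer_singleton_iff.mpr (hall k).symm⟩ :
            Subgroup.centralizer ({e (h * h)} : Set G33)))
          fun a b hab => tEl_injective (congrArg Subtype.val hab))
      have := card_centralizer_le (e_ne_one e hc hne')
      omega
    have hP : IsPGroup 2 f.ker := fun x => ⟨1, Subtype.ext (by
      show (x.1) ^ (2 ^ 1) = 1
      rw [pow_one, pow_two]; exact hsq x.1 x.2)⟩
    haveI : Fact (Nat.Prime 2) := ⟨Nat.prime_two⟩
    obtain ⟨n, hn⟩ := IsPGroup.iff_card.mp hP
    have hcH : Nat.card H = 5616 := (Nat.card_congr e).trans card_G33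
    have hd : Nat.card f.ker ∣ 5616 := hcH ▸ Subgroup.card_subgroup_dvd_card _
    rw [hn] at hd
    have hn4 : n ≤ 4 := by
      by_contra hcon
      have h5 : 2 ^ 5 ∣ 5616 := (pow_dvd_pow 2 (by omega)).trans hd
      norm_num at h5
    have hle16 : Nat.card f.ker ≤ 16 := by
      rw [hn]; calc 2 ^ n ≤ 2 ^ 4 := Nat.pow_le_pow_right (by norm_num) hn4
        _ = 16 := rfl
    obtain ⟨⟨z, hz⟩, hz1⟩ := Subgroup.ne_bot_iff_exists_ne_one.mp hne
    have hz1' : z ≠ 1 := fun h' => hz1 (Subtype.ext h')
    have hidx : (Subgroup.centralizer ({z} : Set H)).index ≤ 16 := by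
      refine le_trans ?_ hle16
      let ψ : H ⧸ Subgroup.centralizer ({z} : Set H) → f.ker := fun q =>
        ⟨q.out * z * q.out⁻¹, (MonoidHom.normal_ker f).conj_mem z hz _⟩
      refine Nat.card_le_card_of_injective ψ fun p q hpq => ?_
      have h' : p.out * z * p.out⁻¹ = q.out * z * q.out⁻¹ := congrArg Subtype.val hpq
      rw [← QuotientGroup.out_eq' p, ← QuotientGroup.out_eq' q, QuotientGroup.eq,
        Subgroup.mem_centralizer_singleton_iff]
      calc p.out⁻¹ * q.out * z = p.out⁻¹ * (q.out * z * q.out⁻¹) * q.out := by group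
        _ = p.out⁻¹ * (p.out * z * p.out⁻¹) * q.out := by rw [h']
        _ = _ := by group
    have hCz := card_centralizer_le (e_ne_one e hc hz1')
    rw [← card_centralizer_e e hc] at hCz
    have hm := (Subgroup.centralizer ({z} : Set H)).card_mul_index
    rw [hcH] at hm
    have := Nat.mul_le_mul hCz hidx
    omega
  · intro h x y
    show adj (σ h x) (σ h y) = adj x y
    rw [Bool.eq_iff_iff, adj_iff, adj_iff]
    constructor
    · rintro ⟨hne, k, hk1, hk2⟩
      obtain ⟨j, rfl⟩ := (π h).surjective k
      exact ⟨fun e' => hne (by rw [e']), j, (hσ' h x j).mpr hk1, (hσ' h y j).mpr hk2⟩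
    · rintro ⟨hne, k, hk1, hk2⟩
      exact ⟨fun e' => hne ((f h).injective e'), κ h k, (hσ' h x k).mp hk1, (hσ' h y k).mp hk2⟩

end

theorem index_two_false (N : Subgroup G33) : N.index ≠ 2 := by
  intro hN
  have hsq : ∀ a : G33, a * a ∈ N := Subgroup.mul_self_mem_of_index_two hN
  have htop : N = ⊤ := by
    rw [eq_top_iff]
    intro g _
    refine Matrix.SpecialLinearGroup.diagonal_transvection_induction' (· ∈ N) g ?_ ?_ (fun a b => N.mul_mem)
    · intro i j hij c hc
      have key : ∀ i j : Fin 3, ∀ c : K, i ≠ j → c ≠ 0 → ∃ a ∈ [M3.id3,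
          (⟨0, 2, 0, 1, 0, 0, 0, 0, 1⟩ : M3), ⟨0, 0, 2, 0, 1, 0, 1, 0, 0⟩,
          ⟨1, 0, 0, 0, 0, 2, 0, 1, 0⟩], a.det = 1 ∧ a.mul a =
          ofMat (Matrix.diagonal (fun k => if k = i then c else if k = j then c⁻¹ else 1)) := by
        decide +kernel
      obtain ⟨a, -, ha, haa⟩ := key i j c hij hc
      convert hsq (mk a ha) using 1
      apply Subtype.ext
      show _ = toMat a * toMat a
      rw [Matrix.SpecialLinearGroup.diag2n_coe, ← toMat_ofMat (toMat a * toMat a), ofMat_mul,
        ofMat_toMat, haa, toMat_ofMat]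
    · intro i j hij c
      have e : (Matrix.SpecialLinearGroup.transvection hij c : G33) =
          Matrix.SpecialLinearGroup.transvection hij (2 * c) *
            Matrix.SpecialLinearGroup.transvection hij (2 * c) := by
        apply Subtype.ext
        rw [Matrix.SpecialLinearGroup.coe_mul, Matrix.SpecialLinearGroup.transvection_coe,
          Matrix.SpecialLinearGroup.transvection_coe]
        refine Eq.trans ?_ (Matrix.transvection_mul_transvection_same i j hij (2 * c) (2 * c)).symm
        show 1 + Matrix.single i j c = 1 + Matrix.single i j (2 * c + 2 * c)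
        congr 2
        have h4 : (4 : K) = 1 := by decide
        linear_combination (-c) * h4
      rw [e]; exact hsq _
  rw [htop, Subgroup.index_top] at hN
  norm_num at hN

/-- The recognition theorem. -/
theorem nonempty_equiv {H : Type*} [Group H] [Finite H] (e : H ≃ G33)
    (hc : ∀ x y : H, x * y = y * x ↔ e x * e y = e y * e x) : Nonempty (H ≃* G33) := by
  obtain ⟨f, hf, hfA⟩ := exists_embedding e hc
  obtain ⟨g, hg, hgA⟩ := exists_embedding (Equiv.refl G33) (fun _ _ => Iff.rfl)
  have hfr : Nat.card f.range = 5616 := by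
    rw [← card_G33, ← Nat.card_congr e]; exact (Nat.card_congr (MonoidHom.ofInjective hf).toEquiv).symm
  have hgr : Nat.card g.range = 5616 := by
    rw [← card_G33]; exact (Nat.card_congr (MonoidHom.ofInjective hg).toEquiv).symm
  have hfle : f.range ≤ autGraph := by rintro _ ⟨h, rfl⟩; exact hfA h
  have hgle : g.range ≤ autGraph := by rintro _ ⟨h, rfl⟩; exact hgA h
  have hA := card_autGraph_le
  -- the preimage of the first image has index at most two
  set N := f.range.comap g
  have hN : N.index ≤ 2 := by
    have hmul : f.range.relIndex autGraph * Nat.card f.range = Nat.card autGraph := by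
      rw [mul_comm, ← Subgroup.relIndex_bot_left (H := f.range), ← Subgroup.relIndex_bot_left (H := autGraph)]
      exact Subgroup.relIndex_mul_relIndex ⊥ f.range autGraph bot_le hfle
    have hne : f.range.relIndex autGraph ≠ 0 := Subgroup.index_ne_zero_of_finite
    have hrel : f.range.relIndex autGraph ≤ 2 := by
      rw [hfr] at hmul
      by_contra hcon
      have : 3 * 5616 ≤ f.range.relIndex autGraph * 5616 := Nat.mul_le_mul_right _ (by omega)
      omega
    rw [Subgroup.index_comap]
    exact (Subgroup.relIndex_le_of_le_right hgle hne).trans hrel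
  have hN1 : N.index = 1 := by
    have := Subgroup.index_ne_zero_of_finite (H := N)
    have := index_two_false N
    omega
  have hgf : g.range ≤ f.range := by
    rintro _ ⟨x, rfl⟩
    have : x ∈ N := (Subgroup.index_eq_one.mp hN1) ▸ Subgroup.mem_top x
    exact this
  have heq : g.range = f.range := Subgroup.eq_of_le_of_card_ge hgf (by rw [hfr, hgr])
  exact ⟨((MonoidHom.ofInjective hf).trans (MulEquiv.subgroupCongr heq.symm)).trans
    (MonoidHom.ofInjective hg).symm⟩

end Cfsg.Agent.H78.PSL33
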